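import Cfsg.Agent.Alperin.Induction
import Cfsg.Agent.Alperin.Centric
import Cfsg.Agent.ConjFunctor.LocalGlobal

/-!
Local to global along towers above the centre of a Sylow subgroup: with Alperin's theorem only the fully
normalized subgroups `Y ⊇ Z(S)` matter, and the normalizer of `W (N_S Y)` moves to such a subgroup again.
-/

set_option autoImplicit false

open Cfsg
open CfsgLib.ConjFunctor

namespace CfsgLib.SectionFunctors

variable {G : Type*} [Group G] [Finite G] {p : ℕ} [Fact p.Prime]

/-- Induction for a functor containing the centre: a relation on partial conjugations, to be derived from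
a property `L` of the fully normalized subgroups containing the centre of `S`, proved along towers. -/
theorem pair_tower_induction (S : Sylow p G) (W : Subgroup G → Subgroup G) (hW : IsConjugacyFunctor p W)
    (hWZ : ∀ H : Subgroup G, IsPGroup p ↥H → H ⊓ Subgroup.centralizer (H : Set G) ≤ W H)
    (Φ : Subgroup G → G → Prop)
    (restrict : ∀ (H K : Subgroup G) (g : G), H ≤ K → K ≤ (S : Subgroup G) →
      conjOf g K ≤ (S : Subgroup G) → Φ K g → Φ H g)
    (comp : ∀ (H : Subgroup G) (g k : G), H ≤ (S : Subgroup G) → conjOf g H ≤ (S : Subgroup G) →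
      conjOf (k * g) H ≤ (S : Subgroup G) → Φ H g → Φ (conjOf g H) k → Φ H (k * g))
    (hcent : ∀ (H : Subgroup G) (c : G), H ≤ (S : Subgroup G) → c ∈ Subgroup.centralizer (H : Set G) → Φ H c)
    (L : Subgroup G → Prop)
    (hL : ∀ U : Subgroup G, (S : Subgroup G) ⊓ Subgroup.centralizer ((S : Subgroup G) : Set G) ≤ U →
      FullyNormalized p (S : Subgroup G) U → L U →
      ∀ n ∈ Subgroup.normalizer (U : Set G), Φ U n)
    (hstep : ∀ Y : Subgroup G, (S : Subgroup G) ⊓ Subgroup.centralizer ((S : Subgroup G) : Set G) ≤ Y →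
      FullyNormalized p (S : Subgroup G) Y →
      ((S : Subgroup G) ⊓ Subgroup.normalizer (Y : Set G) = (S : Subgroup G) ∨
        ∃ k : G,
          conjOf k ((S : Subgroup G) ⊓ Subgroup.normalizer
              ((W ((S : Subgroup G) ⊓ Subgroup.normalizer (Y : Set G)) : Subgroup G) : Set G)) ≤
            (S : Subgroup G) ⊓ Subgroup.normalizer
              ((conjOf k (W ((S : Subgroup G) ⊓ Subgroup.normalizer (Y : Set G))) : Subgroup G) : Set G) ∧
          Φ ((S : Subgroup G) ⊓ Subgroup.normalizer
              ((W ((S : Subgroup G) ⊓ Subgroup.normalizer (Y : Set G)) : Subgroup G) : Set G)) k ∧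
          Φ (conjOf k ((S : Subgroup G) ⊓ Subgroup.normalizer
              ((W ((S : Subgroup G) ⊓ Subgroup.normalizer (Y : Set G)) : Subgroup G) : Set G))) k⁻¹ ∧
          L (conjOf k (W ((S : Subgroup G) ⊓ Subgroup.normalizer (Y : Set G))))) → L Y) :
    ∀ (H : Subgroup G) (g : G), H ≤ (S : Subgroup G) → conjOf g H ≤ (S : Subgroup G) → Φ H g := by
  set Z := (S : Subgroup G) ⊓ Subgroup.centralizer ((S : Subgroup G) : Set G) with hZ
  have key : ∀ m : ℕ,
      (∀ U : Subgroup G, Z ≤ U → FullyNormalized p (S : Subgroup G) U → m ≤ Nat.card U → L U) →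
      ∀ (H : Subgroup G) (g : G), H ≤ (S : Subgroup G) → conjOf g H ≤ (S : Subgroup G) →
        m ≤ Nat.card H → Φ H g := by
    intro m hm H g hH hgH
    refine Alperin.centric_radical_induction S (fun K x => m ≤ Nat.card K → Φ K x)
      (fun H K x hHK hK hxK h hc => restrict H K x hHK hK hxK (h (hc.trans (Subgroup.card_le_of_le hHK))))
      (fun H x y hH hx hyx h1 h2 hc => comp H x y hH hx hyx (h1 hc) (h2 (by rw [card_conjOf]; exact hc)))
      (fun H c hH hc _ => hcent H c hH hc) ?_ H g hH hgH
    intro U T hT hFN _ hrad n hn _ hc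
    have hUS : U ≤ (S : Subgroup G) := by rw [← hT]; exact inf_le_left
    have hZU : Z ≤ U :=
      (le_inf inf_le_left (inf_le_right.trans (Subgroup.centralizer_le hUS))).trans
        (Alperin.centric_of_radical S hrad)
    exact hL U hZU ⟨hUS, hFN⟩ (hm U hZU ⟨hUS, hFN⟩ hc) n hn
  have hall : ∀ d, ∀ Y : Subgroup G, Z ≤ Y → FullyNormalized p (S : Subgroup G) Y →
      Nat.card G - Nat.card ↥((S : Subgroup G) ⊓ Subgroup.normalizer (Y : Set G)) = d → L Y := by
    intro d
    induction d using Nat.strongRecOn with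
    | ind d ih =>
      intro Y hZY hY hd
      refine hstep Y hZY hY ?_
      set T := (S : Subgroup G) ⊓ Subgroup.normalizer (Y : Set G) with hT
      by_cases hTS : T = (S : Subgroup G)
      · exact Or.inl hTS
      right
      have hTp : IsPGroup p ↥T := isPGroup_inf _
      set Y1 := W T with hY1
      set N1 := (S : Subgroup G) ⊓ Subgroup.normalizer (Y1 : Set G) with hN1
      have hTN1 : T ≤ N1 :=
        le_inf inf_le_left (Subgroup.le_normalizer.trans (normalizer_le_normalizer_functor hW hTp))
      have hlt : Nat.card T < Nat.card N1 := card_lt_next hW S hTS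
      obtain ⟨k, hkFN, hkS⟩ := exists_fullyNormalized_conj S
        (functor_inf_normalizer_le hW S Y) (Q := N1) inf_le_right (isPGroup_inf _)
      have hkN : conjOf k N1 ≤ (S : Subgroup G) ⊓ Subgroup.normalizer ((conjOf k Y1 : Subgroup G) : Set G) :=
        le_inf hkS (by rw [normalizer_conjOf]; exact conjOf_mono inf_le_right)
      have hbig : ∀ (B : Subgroup G) (x : G), B ≤ (S : Subgroup G) → conjOf x B ≤ (S : Subgroup G) →
          Nat.card T + 1 ≤ Nat.card B → Φ B x := by
        refine key _ fun U hZU hU hc => ?_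
        refine ih _ ?_ U hZU hU rfl
        have h1 : Nat.card U ≤ Nat.card ↥((S : Subgroup G) ⊓ Subgroup.normalizer (U : Set G)) :=
          Subgroup.card_le_of_le (le_inf hU.1 Subgroup.le_normalizer)
        have h2 := Subgroup.card_le_card_group ((S : Subgroup G) ⊓ Subgroup.normalizer (U : Set G))
        omega
      have hZk : Z ≤ conjOf k Y1 := by
        have hkT : conjOf k T ≤ (S : Subgroup G) := (conjOf_mono hTN1).trans hkS
        intro z hz
        have hzC : z ∈ Subgroup.centralizer ((conjOf k T : Subgroup G) : Set G) :=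
          Subgroup.centralizer_le hkT hz.2
        have hyC : k⁻¹ * z * k ∈ Subgroup.centralizer (T : Set G) := Alperin.mem_centralizer_conj_map.mp hzC
        have hzp : IsPGroup p ↥(Subgroup.zpowers (k⁻¹ * z * k)) := by
          have h1 : Subgroup.zpowers (k⁻¹ * z * k) = conjOf k⁻¹ (Subgroup.zpowers z) := by
            rw [conjOf, MonoidHom.map_zpowers]; simp
          rw [h1]
          exact (S.2.to_le (Subgroup.zpowers_le.mpr hz.1)).map _
        have hR : IsPGroup p ↥(Subgroup.zpowers (k⁻¹ * z * k) ⊔ T) :=
          hzp.to_sup_of_normal_right' hTp (Subgroup.zpowers_le.mpr (Subgroup.centralizer_le_normalizer _ hyC))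
        have hRN : Subgroup.zpowers (k⁻¹ * z * k) ⊔ T ≤ Subgroup.normalizer (Y : Set G) :=
          sup_le (Subgroup.zpowers_le.mpr (Subgroup.centralizer_le_normalizer _
            (Subgroup.centralizer_le (le_inf hY.1 Subgroup.le_normalizer : Y ≤ T) hyC))) inf_le_right
        have heq : T = Subgroup.zpowers (k⁻¹ * z * k) ⊔ T :=
          Subgroup.eq_of_le_of_card_ge le_sup_right (hY.sylowIn.card_le hRN hR)
        have hyT : k⁻¹ * z * k ∈ T := by
          rw [heq]; exact Subgroup.mem_sup_left (Subgroup.mem_zpowers _)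
        have hzT : z ∈ conjOf k T := mem_conjOf.mpr hyT
        rw [hY1, ← conjugacyFunctor_conjOf hW hTp k]
        exact hWZ _ (hTp.map _) ⟨hzT, hzC⟩
      refine ⟨k, hkN, hbig N1 k inf_le_left hkS hlt, hbig _ k⁻¹ hkS ?_ (by rw [card_conjOf]; exact hlt),
        ih _ ?_ _ hZk hkFN rfl⟩
      · rw [conjOf_conjOf, inv_mul_cancel, conjOf_one]; exact inf_le_left
      · have h1 := Subgroup.card_le_of_le hkN
        rw [card_conjOf] at h1
        have h2 := Subgroup.card_le_card_group ((S : Subgroup G) ⊓ Subgroup.normalizer ((conjOf k Y1 : Subgroup G) : Set G))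
        omega
  intro H g hH hgH
  exact key 0 (fun U hZU hU _ => hall _ U hZU hU rfl) H g hH hgH (Nat.zero_le _)

end CfsgLib.SectionFunctors
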